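/-
The norm trick: a Frobenius group `Q ⟨x⟩` acting on an abelian normal subgroup `N` with
`C_N(Q) = 1` forces elements `v x` whose `p`-th power is nontrivial.
-/
import Mathlib
import Cfsg.Agent.Lib.Nse.Basic

set_option autoImplicit false

namespace CfsgLib.Nse

open Subgroup
open scoped IsMulCommutative

variable {G : Type*} [Group G]

theorem mul_pow_eq_prod (N : Subgroup G) [N.Normal] [IsMulCommutative N] (v : N) (g : G) (n : ℕ) :
    ((v : G) * g) ^ n = ((∏ i ∈ Finset.range n, MulAut.conjNormal (g ^ i) v : N) : G) * g ^ n := by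
  induction n with
  | zero => simp
  | succ n ih =>
    rw [pow_succ, ih, Finset.prod_range_succ, Subgroup.coe_mul, MulAut.conjNormal_apply, pow_succ]
    group

theorem prod_conj_fixed [Finite G] (N Q : Subgroup G) [N.Normal] [IsMulCommutative N] [Fintype Q]
    (hfix : ∀ v ∈ N, (∀ u ∈ Q, u * v * u⁻¹ = v) → v = 1) (v : N) :
    ∏ u : Q, MulAut.conjNormal (u : G) v = 1 := by
  apply Subtype.ext
  refine hfix _ (∏ u : Q, MulAut.conjNormal (u : G) v).2 fun w hw => ?_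
  have : MulAut.conjNormal w (∏ u : Q, MulAut.conjNormal (u : G) v) =
      ∏ u : Q, MulAut.conjNormal (u : G) v := by
    rw [map_prod]
    refine Fintype.prod_equiv (Equiv.mulLeft (⟨w, hw⟩ : Q)) _ _ fun u => ?_
    simp only [Equiv.coe_mulLeft, Subgroup.coe_mul, map_mul, MulAut.mul_apply]
  rw [← MulAut.conjNormal_apply, this]

theorem pow_card_eq_one_of_norm [Finite G] (N Q : Subgroup G) [N.Normal] [IsMulCommutative N]
    {x : G} {p : ℕ} (hp : 0 < p) (hx : x ∈ normalizer (Q : Set G)) (hxp : x ^ p = 1)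
    (hN : ∀ v ∈ N, ∀ u ∈ Q, (v * (u * x * u⁻¹)) ^ p = 1)
    (hfix : ∀ v ∈ N, (∀ u ∈ Q, u * v * u⁻¹ = v) → v = 1)
    (hfree : ∀ i, 0 < i → i < p → ∀ u ∈ Q, Commute u (x ^ i) → u = 1) :
    ∀ v ∈ N, v ^ Nat.card Q = 1 := by
  classical
  haveI := Fintype.ofFinite Q
  intro v hv
  have h1 : ∀ u : Q, ∏ i ∈ Finset.range p,
      MulAut.conjNormal (((u : G) * x * (u : G)⁻¹) ^ i) (⟨v, hv⟩ : N) = 1 := fun u => by
    have h2 := mul_pow_eq_prod N ⟨v, hv⟩ (u * x * (u : G)⁻¹) p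
    rw [hN v hv u u.2, conj_pow, hxp] at h2
    simp only [mul_one, mul_inv_cancel] at h2
    exact Subtype.ext h2.symm
  have h2 : ∏ u : Q, ∏ i ∈ Finset.range p,
      MulAut.conjNormal (((u : G) * x * (u : G)⁻¹) ^ i) (⟨v, hv⟩ : N) = 1 :=
    Finset.prod_eq_one fun u _ => h1 u
  rw [Finset.prod_comm] at h2
  have h3 : ∀ i, 0 < i → i < p → ∏ u : Q,
      MulAut.conjNormal (((u : G) * x * (u : G)⁻¹) ^ i) (⟨v, hv⟩ : N) = 1 := by
    intro i hi hip
    have hxi : x ^ i ∈ normalizer (Q : Set G) := Subgroup.pow_mem _ hx i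
    let c : Q → Q := fun u => ⟨u * (x ^ i * (u : G)⁻¹ * (x ^ i)⁻¹),
      Q.mul_mem u.2 ((Subgroup.mem_normalizer_iff.mp hxi _).mp (Q.inv_mem u.2))⟩
    have hc : Function.Injective c := by
      intro a b hab
      have h4 : (a : G) * (x ^ i * (a : G)⁻¹ * (x ^ i)⁻¹) = b * (x ^ i * (b : G)⁻¹ * (x ^ i)⁻¹) :=
        congrArg Subtype.val hab
      have h5 : Commute ((b : G)⁻¹ * a) (x ^ i) := by
        have : (b : G)⁻¹ * a * x ^ i = (b : G)⁻¹ * (a * (x ^ i * (a : G)⁻¹ * (x ^ i)⁻¹)) * x ^ i * a := by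
          group
        rw [Commute, SemiconjBy, this, h4]; group
      have h6 := hfree i hi hip _ (Q.mul_mem (Q.inv_mem b.2) a.2) h5
      exact Subtype.ext (inv_mul_eq_one.mp h6).symm
    rw [← prod_conj_fixed N Q hfix (MulAut.conjNormal (x ^ i) ⟨v, hv⟩)]
    refine Fintype.prod_bijective c (Finite.injective_iff_bijective.mp hc) _ _ fun u => ?_
    rw [← MulAut.mul_apply, ← map_mul, conj_pow]
    congr 2
    simp only [c]; group
  obtain ⟨k, rfl⟩ : ∃ k, p = k + 1 := ⟨p - 1, by omega⟩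
  rw [Finset.prod_range_succ', Finset.prod_eq_one fun i hi =>
    h3 (i + 1) (by omega) (by simpa using hi)] at h2
  simp only [pow_zero, map_one, MulAut.one_apply, Finset.prod_const, Finset.card_univ,
    one_mul] at h2
  rw [Nat.card_eq_fintype_card]
  exact congrArg Subtype.val h2

variable [Finite G]

/-- `p ∣ s m + s (p m)` for `p ∤ m` -/
theorem L_gen {p : ℕ} (hp : p.Prime) (hd : p ∣ Nat.card G) (m : ℕ) (hm : ¬ p ∣ m)
    (hmd : m ∣ Nat.card G) : p ∣ s G m + s G (p * m) := by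
  induction m using Nat.strong_induction_on with
  | _ m ih =>
    have hc : p.Coprime m := (Nat.Prime.coprime_iff_not_dvd hp).mpr hm
    have h1 := (Dvd.intro _ rfl).trans (frob (hc.mul_dvd_of_dvd_of_dvd hd hmd))
    rw [sum_divisors_coprime hc, sum_divisors_prime hp, ← Finset.sum_add_distrib] at h1
    simp only [one_mul] at h1
    have h0 : m ≠ 0 := by rintro rfl; exact hm (dvd_zero p)
    rw [← Nat.insert_self_properDivisors h0, Finset.sum_insert Nat.self_notMem_properDivisors] at h1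
    refine (Nat.dvd_add_left ?_).mp h1
    refine Finset.dvd_sum fun d hdm => ?_
    rw [Nat.mem_properDivisors] at hdm
    exact ih d hdm.2 (fun h => hm (h.trans hdm.1)) (hdm.1.trans hmd)

theorem s_ne_zero_of_dvd {m n : ℕ} (h : s G n ≠ 0) (hd : m ∣ n) : s G m ≠ 0 := by
  obtain ⟨g, hg⟩ := s_ne_zero_iff.mp h
  obtain ⟨k, rfl⟩ := hd
  have hk : k ≠ 0 := by
    rintro rfl
    exact (orderOf_pos g).ne' (by simpa using hg)
  refine s_ne_zero_iff.mpr ⟨g ^ k, ?_⟩
  rw [orderOf_pow' _ hk, hg, Nat.gcd_eq_right (Dvd.intro_left _ rfl),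
    Nat.mul_div_cancel _ (Nat.pos_of_ne_zero hk)]

theorem dvd_card_of_s_ne_zero {m : ℕ} (h : s G m ≠ 0) : m ∣ Nat.card G := by
  obtain ⟨g, hg⟩ := s_ne_zero_iff.mp h
  exact hg ▸ orderOf_dvd_natCard g

/-- a `p`-element has order `1` or `p` if there is no element of order `p ^ 2` -/
theorem pow_eq_one_of_s_sq {p : ℕ} (h : s G (p ^ 2) = 0) {x : G} {k : ℕ} (hx : orderOf x = p ^ k) :
    x ^ p = 1 := by
  rcases Nat.lt_or_ge k 2 with hk | hk
  · rw [← orderOf_dvd_iff_pow_eq_one, hx]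
    calc p ^ k ∣ p ^ 1 := pow_dvd_pow p (by omega)
      _ = p := pow_one p
  · exact absurd h (s_ne_zero_of_dvd (s_ne_zero_iff.mpr ⟨x, hx⟩) (pow_dvd_pow p hk))

/-- if no element has order `p ^ 2` the `p`-part of `|G|` divides `1 + s p` -/
theorem pow_dvd_of_s_sq {p : ℕ} (hp : p.Prime) (h : s G (p ^ 2) = 0) {k : ℕ}
    (hk : p ^ k ∣ Nat.card G) (hd : p ∣ Nat.card G) : p ^ k ∣ 1 + s G p := by
  rcases Nat.eq_zero_or_pos k with rfl | hk0
  · simp
  have h1 := Count.frobenius_one hk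
  have h2 : {x : G | x ^ p ^ k = 1} = {x : G | x ^ p = 1} := by
    ext x
    simp only [Set.mem_setOf_eq]
    constructor
    · intro hx
      obtain ⟨j, -, hj⟩ := (Nat.dvd_prime_pow hp).mp (orderOf_dvd_of_pow_eq_one hx)
      exact pow_eq_one_of_s_sq h hj
    · intro hx
      obtain ⟨j, rfl⟩ : ∃ j, k = j + 1 := ⟨k - 1, by omega⟩
      rw [pow_succ', pow_mul, hx, one_pow]
  rwa [h2, ← sum_s hp.ne_zero, sum_divisors_prime hp, s_one] at h1

end CfsgLib.Nse
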