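import Mathlib
import Cfsg.Agent.Lib.Nse.Trace
import Cfsg.Agent.Lib.LocStr.RankOne
import Cfsg.Agent.Lib.Dickson.SmallRecog
import Cfsg.Agent.S3433

/-!
# The alternating groups of degree 4, 5, 6 are determined by their same-order counts
-/

set_option autoImplicit false

namespace CfsgLib.Nse

open Subgroup

variable {G : Type*} [Group G] [Finite G]

theorem s_eq_card_filter [Fintype G] (m : ℕ) :
    s G m = (Finset.univ.filter fun g : G => orderOf g = m).card :=
  Nat.subtype_card _ (by simp)

theorem sum_le_card (T : Finset ℕ) : ∑ m ∈ T, s G m ≤ Nat.card G := by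
  haveI := Fintype.ofFinite G
  simp only [s_eq_card_filter]
  rw [Finset.sum_card_fiberwise_eq_card_filter, Nat.card_eq_fintype_card]
  exact Finset.card_le_univ _

theorem mem_of_sum_eq {T : Finset ℕ} (h : ∑ m ∈ T, s G m = Nat.card G) (g : G) :
    orderOf g ∈ T := by
  by_contra e
  have := sum_le_card (G := G) (insert (orderOf g) T)
  rw [Finset.sum_insert e] at this
  exact s_ne_zero_iff.mpr ⟨g, rfl⟩ (by omega)

theorem sum_eq_card {N : ℕ} (hN : N ≠ 0) (h : Nat.card G ∣ N) :
    ∑ d ∈ N.divisors, s G d = Nat.card G := by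
  rw [sum_s hN, Set.eq_univ_of_forall (s := {x : G | x ^ N = 1}) fun x =>
    orderOf_dvd_iff_pow_eq_one.mp ((orderOf_dvd_natCard x).trans h), Set.ncard_univ]

theorem eq_two_of_odd {m : ℕ} (h : Odd (s G m)) (h1 : s G m ≠ 1) : m = 2 := by
  by_contra e
  have h0 : m ≠ 0 := by
    rintro rfl
    rw [s_eq_zero_iff.mpr fun g => (orderOf_pos g).ne'] at h
    exact absurd h (by decide)
  have h2 : m ≠ 1 := by rintro rfl; exact h1 s_one
  exact Nat.not_even_iff_odd.mpr h (even_s (by omega))

theorem s_zero_of_dvd {m n : ℕ} (h : s G m = 0) (hd : m ∣ n) : s G n = 0 :=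
  by_contra fun e => s_ne_zero_of_dvd e hd h

theorem pow_dvd_s {p q k : ℕ} (hp : p.Prime) (hq : q.Prime) (hne : p ≠ q) (h : s G (p * q) = 0)
    (hk : p ^ k ∣ Nat.card G) : p ^ k ∣ s G q := by
  haveI := Fact.mk hp
  obtain ⟨P, hP⟩ := Sylow.exists_subgroup_card_pow_prime p hk
  letI : MulAction P {g : G // orderOf g = q} :=
    { smul := fun u x => ⟨MulAut.conj (u : G) x, by rw [MulEquiv.orderOf_eq, x.2]⟩
      one_smul := fun x => Subtype.ext (by change MulAut.conj (1 : G) _ = _; simp)
      mul_smul := fun u v x => Subtype.ext (by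
        change MulAut.conj ((u : G) * v) _ = MulAut.conj (u : G) (MulAut.conj (v : G) _); simp
          [mul_assoc]) }
  rw [← hP, s, Nat.card_congr (MulAction.selfEquivOrbitsQuotientProd (G := P)
    (X := {g : G // orderOf g = q}) fun x => ?_),
    Nat.card_prod]
  · exact Dvd.intro_left _ rfl
  by_contra e
  obtain ⟨u, hu⟩ := exists_prime_orderOf_dvd_card' (G := MulAction.stabilizer P x) p (by
    obtain ⟨j, hj⟩ := IsPGroup.iff_card.mp ((IsPGroup.of_card hP).to_subgroup
      (MulAction.stabilizer P x))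
    rw [hj]
    exact dvd_pow_self p fun e' => e (card_eq_one.mp (by rw [hj, e', pow_zero])))
  have hc : Commute ((u : P) : G) x := mul_inv_eq_iff_eq_mul.mp (congrArg Subtype.val u.2)
  have ho : orderOf ((u : P) : G) = p := by rw [orderOf_coe, orderOf_coe, hu]
  exact s_eq_zero_iff.mp h _ (by
    rw [hc.orderOf_mul_eq_mul_orderOf_of_coprime (by
      rw [ho, x.2]; exact (Nat.coprime_primes hp hq).mpr hne), ho, x.2])

theorem dvd_of_cyclic {p k : ℕ} (hp : p.Prime) (h : s G (p ^ k) ≠ 0)
    (hk : ¬ p ^ (k + 1) ∣ Nat.card G) {X : Type*} [Finite X] (φ : X → G)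
    (hφ : ∀ x, orderOf (φ x) = p) (σ : G → X → X) (hσ : ∀ g, Function.Injective (σ g))
    (he : ∀ g x, φ (σ g x) = g * φ x * g⁻¹) : s G p ∣ Nat.card X * (p - 1) := by
  classical
  haveI := Fact.mk hp
  haveI := Fintype.ofFinite G
  haveI := Fintype.ofFinite X
  obtain ⟨y, hy⟩ := s_ne_zero_iff.mp h
  have hyp : IsPGroup p (zpowers y) := IsPGroup.of_card (by rw [Nat.card_zpowers, hy])
  obtain ⟨P, hP⟩ := hyp.exists_le_sylow
  have hPe : zpowers y = P := eq_of_le_of_card_ge hP (by
    obtain ⟨j, hj⟩ := IsPGroup.iff_card.mp P.isPGroup'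
    rw [hj, Nat.card_zpowers, hy]
    exact Nat.pow_le_pow_right hp.pos (not_lt.mp fun e =>
      hk ((pow_dvd_pow p e).trans (hj ▸ card_subgroup_dvd_card _))))
  have hin : ∀ a : G, orderOf a = p → ∃ g, g * a * g⁻¹ ∈ zpowers y := fun a ha => by
    obtain ⟨Q, hQ⟩ := (IsPGroup.of_card (G := zpowers a) (p := p) (n := 1)
      (by rw [Nat.card_zpowers, ha, pow_one])).exists_le_sylow
    obtain ⟨g, rfl⟩ := MulAction.exists_smul_eq G Q P
    exact ⟨g, hPe ▸ smul_mem_pointwise_smul _ (MulAut.conj g) _ (hQ (mem_zpowers a))⟩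
  have hle : ∀ a b : G, orderOf a = p → orderOf b = p →
      (Finset.univ.filter fun x => a ∈ zpowers (φ x)).card ≤
        (Finset.univ.filter fun x => b ∈ zpowers (φ x)).card := fun a b ha hb => by
    obtain ⟨g, hg⟩ := hin a ha
    obtain ⟨k, hk⟩ := hin b hb
    obtain ⟨i, hi⟩ := LocStr.unique_of_cyclic_or_quaternion hyp (Or.inl inferInstance) _ hg _ hk
      ((MulEquiv.orderOf_eq (MulAut.conj g) a).trans ha) (by
        rw [conj_pow, ← hb, pow_orderOf_eq_one]; simp)
    refine Finset.card_le_card_of_injOn (σ (k⁻¹ * g)) (fun x hx => ?_) (hσ _).injOn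
    obtain ⟨j, hj⟩ := (Finset.mem_filter.mp hx).2
    refine Finset.mem_filter.mpr ⟨Finset.mem_univ _, j * i, ?_⟩
    simp only at hi hj ⊢
    rw [he, conj_zpow, zpow_mul, hj, mul_assoc k⁻¹, mul_inv_rev, ← mul_assoc, mul_assoc k⁻¹,
      ← conj_zpow, hi]
    group
  by_cases h0 : s G p = 0
  · cases isEmpty_or_nonempty X
    · simp
    · exact absurd (hφ (Classical.arbitrary X)) (s_eq_zero_iff.mp h0 _)
  obtain ⟨a, ha⟩ := s_ne_zero_iff.mp h0
  rw [s_eq_card_filter, Nat.card_eq_fintype_card, ← Finset.card_univ,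
    Finset.card_mul_eq_card_mul (s := Finset.univ) (fun x b => b ∈ zpowers (φ x))
      (t := Finset.univ.filter fun g : G => orderOf g = p)
      (n := (Finset.univ.filter fun x => a ∈ zpowers (φ x)).card) (fun x _ => ?_) fun b hb =>
        le_antisymm (hle b a (Finset.mem_filter.mp hb).2 ha) (hle a b ha (Finset.mem_filter.mp hb).2)]
  · exact Dvd.intro _ rfl
  rw [← Nat.totient_prime hp, ← IsCyclic.card_orderOf_eq_totient (α := zpowers (φ x))
    (by rw [Fintype.card_zpowers, hφ])]
  refine (Finset.card_bij (fun (b : zpowers (φ x)) _ => (b : G)) (fun b hb => ?_)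
    (fun _ _ _ _ => Subtype.ext)
    fun b hb => ?_).symm
  · exact Finset.mem_filter.mpr ⟨Finset.mem_filter.mpr ⟨Finset.mem_univ _,
      (orderOf_coe b).trans (Finset.mem_filter.mp hb).2⟩, b.2⟩
  · obtain ⟨h1, h2⟩ := Finset.mem_filter.mp hb
    exact ⟨⟨b, h2⟩, Finset.mem_filter.mpr ⟨Finset.mem_univ _,
      (orderOf_mk b h2).trans (Finset.mem_filter.mp h1).2⟩, rfl⟩

theorem dvd_s_of_cyclic {p k : ℕ} (hp : p.Prime) (h : s G (p ^ k) ≠ 0)
    (hk : ¬ p ^ (k + 1) ∣ Nat.card G) {m : ℕ} (hm : m ≠ 0) : s G p ∣ s G (p * m) * (p - 1) :=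
  dvd_of_cyclic hp h hk (fun x : {g : G // orderOf g = p * m} => x.1 ^ m)
    (fun x => by rw [orderOf_pow_of_dvd hm (by rw [x.2]; exact Dvd.intro_left p rfl), x.2,
      Nat.mul_div_cancel _ (Nat.pos_of_ne_zero hm)])
    (fun g x => ⟨MulAut.conj g x, by rw [MulEquiv.orderOf_eq, x.2]⟩)
    (fun g _ _ e => Subtype.ext ((MulAut.conj g).injective (congrArg Subtype.val e)))
    fun _ _ => conj_pow

theorem dvd_card_of_cyclic {p k : ℕ} (hp : p.Prime) (h : s G (p ^ k) ≠ 0)
    (hk : ¬ p ^ (k + 1) ∣ Nat.card G) (hd : p ∣ Nat.card G) : s G p ∣ Nat.card G * (p - 1) := by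
  obtain ⟨a, ha⟩ := s_ne_zero_iff.mp (s_prime_ne_zero hp hd)
  exact dvd_of_cyclic hp h hk (fun x : G => x * a * x⁻¹)
    (fun x => (MulEquiv.orderOf_eq (MulAut.conj x) a).trans ha) (fun g x => g * x)
    (fun g => mul_right_injective g) fun _ _ => by group

theorem dvd_of_bounds {n a b c : ℕ} (hπ : ∀ p, p.Prime → p ∣ n → p = 2 ∨ p = 3 ∨ p = 5)
    (h2 : ¬ 2 ^ (a + 1) ∣ n) (h3 : ¬ 3 ^ (b + 1) ∣ n) (h5 : ¬ 5 ^ (c + 1) ∣ n) :
    n ∣ 2 ^ a * 3 ^ b * 5 ^ c := by
  refine (Nat.dvd_iff_prime_pow_dvd_dvd _ _).mpr fun p k hp hk => ?_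
  rcases k with _ | k
  · simp
  have f : ∀ j, ¬ p ^ (j + 1) ∣ n → p ^ (k + 1) ∣ p ^ j := fun j hj =>
    pow_dvd_pow p (not_lt.mp fun e => hj ((pow_dvd_pow p e).trans hk))
  rcases hπ p hp ((dvd_pow_self p k.succ_ne_zero).trans hk) with rfl | rfl | rfl
  · exact ((f a h2).mul_right _).mul_right _
  · exact ((f b h3).mul_left _).mul_right _
  · exact (f c h5).mul_left _

theorem frob_list {n : ℕ} (l : List ℕ) (hl : n.divisors = l.toFinset ∧ l.Nodup)
    (hn : n ∣ Nat.card G) : n ∣ (l.map (s G)).sum := by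
  rw [← List.sum_toFinset _ hl.2, ← hl.1]; exact frob hn

theorem card_list {n : ℕ} (l : List ℕ) (hl : n ≠ 0 ∧ n.divisors = l.toFinset ∧ l.Nodup)
    (hn : Nat.card G ∣ n) : (l.map (s G)).sum = Nat.card G := by
  rw [← List.sum_toFinset _ hl.2.2, ← hl.2.1]; exact sum_eq_card hl.1 hn

theorem list_le (l : List ℕ) (hl : (l.map (s G)).Nodup) : (l.map (s G)).sum ≤ Nat.card G := by
  rw [← List.sum_toFinset _ (List.Nodup.of_map _ hl)]; exact sum_le_card _

theorem tot (m t : ℕ) (h : m.totient = t) : t ∣ s G m := h ▸ totient_dvd m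

theorem of_vals {V : Set ℕ} (h : vals G = V) :
    (∀ m, s G m = 0 ∨ s G m ∈ V) ∧ ∀ v ∈ V, ∃ m, s G m = v :=
  ⟨fun m => (em (s G m = 0)).imp_right fun e => h ▸ s_mem_vals e,
    fun _ hv => (h ▸ hv : _ ∈ vals G).imp fun _ e => e.2⟩

theorem big {m : ℕ} (hm : 2 < m) : s G m % 2 = 0 := Nat.even_iff.mp (even_s hm)

theorem nse_four (h : vals G = {1, 3, 8}) : Nonempty (G ≃* alternatingGroup (Fin 4)) := by
  obtain ⟨h1, h2⟩ := of_vals h
  simp only [Set.mem_insert_iff, Set.mem_singleton_iff] at h1 h2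
  have s1 := s_one (G := G)
  obtain ⟨m, s2⟩ := h2 3 (by simp)
  obtain rfl := eq_two_of_odd (m := m) (by rw [s2]; decide) (by omega)
  have v : ∀ m, 2 < m → s G m = 0 ∨ s G m = 8 := fun m hm => by
    have := h1 m; have := big (G := G) hm; omega
  have hπ : ∀ p, p.Prime → p ∣ Nat.card G → p = 2 ∨ p = 3 := fun p hp hd => by
    refine (em (p = 2)).imp_right fun e => ?_
    have a1 := L_p hp hd
    rw [(v p (lt_of_le_of_ne hp.two_le (Ne.symm e))).resolve_left (s_prime_ne_zero hp hd)] at a1
    exact (Nat.prime_dvd_prime_iff_eq hp Nat.prime_three).mp (hp.dvd_of_dvd_pow (n := 2) a1)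
  have s9 : s G 9 = 0 := by have := tot (G := G) 9 6 (by decide); have := v 9; omega
  have s27 := s_zero_of_dvd s9 (show 9 ∣ 27 by decide)
  have s18 := s_zero_of_dvd s9 (show 9 ∣ 18 by decide)
  have s36 := s_zero_of_dvd s9 (show 9 ∣ 36 by decide)
  have v3 := v 3 (by decide)
  have v4 := v 4 (by decide)
  have v6 := v 6 (by decide)
  have v8 := v 8 (by decide)
  have v12 := v 12 (by decide)
  have hn := dvd_of_bounds (a := 2) (b := 2) (c := 0) (fun p hp hd => (hπ p hp hd).imp_right Or.inl)
    (fun e => by have := frob_list [1, 2, 4, 8] (by decide) e; simp at this; omega)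
    (fun e => by have := frob_list [1, 3, 9, 27] (by decide) e; simp at this; omega)
    (fun e => by have := hπ 5 Nat.prime_five e; omega)
  have hs := card_list [1, 2, 3, 4, 6, 9, 12, 18, 36] (by decide) hn
  obtain ⟨m, hm⟩ := h2 8 (by simp)
  have hl := list_le (G := G) [1, 2, m] (by simp [*])
  simp only [List.map, List.sum_cons, List.sum_nil] at hs hl
  have h6 : 6 ∣ Nat.card G := by
    have := Nat.le_of_dvd (by decide) hn
    generalize Nat.card G = n at *
    interval_cases n <;> omega
  have h3 := s_prime_ne_zero Nat.prime_three ((show 3 ∣ 6 by decide).trans h6)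
  have := frob_list [1, 2, 3, 6] (by decide) h6
  simp only [List.map, List.sum_cons, List.sum_nil] at this
  exact Dickson.nonempty_equiv_A4 (by omega) (s_eq_zero_iff.mp (by omega))

theorem nse_five (h : vals G = {1, 15, 20, 24}) : Nonempty (G ≃* alternatingGroup (Fin 5)) := by
  obtain ⟨h1, h2⟩ := of_vals h
  simp only [Set.mem_insert_iff, Set.mem_singleton_iff] at h1 h2
  have s1 := s_one (G := G)
  obtain ⟨m, s2⟩ := h2 15 (by simp)
  obtain rfl := eq_two_of_odd (m := m) (by rw [s2]; decide) (by omega)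
  have d2 : 2 ∣ Nat.card G := dvd_card_of_s_ne_zero (by omega)
  have v : ∀ m, 2 < m → s G m = 0 ∨ s G m = 20 ∨ s G m = 24 := fun m hm => by
    have := h1 m; have := big (G := G) hm; omega
  have hπ : ∀ p, p.Prime → p ∣ Nat.card G → p = 2 ∨ p = 3 ∨ p = 5 := fun p hp hd => by
    refine (em (p = 2)).imp_right fun e => ?_
    have a1 := L_p hp hd
    have a2 := tot (G := G) p _ (Nat.totient_prime hp)
    rcases (v p (lt_of_le_of_ne hp.two_le (Ne.symm e))).resolve_left (s_prime_ne_zero hp hd) with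
      a3 | a3 <;> rw [a3] at a1 a2 <;> have := Nat.le_of_dvd (by decide) a1 <;>
      interval_cases p <;> first | omega | exact absurd hp (by decide)
  obtain ⟨m, hm⟩ := h2 20 (by simp)
  obtain ⟨m', hm'⟩ := h2 24 (by simp)
  have hl := list_le (G := G) [1, 2, m, m'] (by simp [*])
  simp only [List.map, List.sum_cons, List.sum_nil] at hl
  have s3 : 3 ∣ Nat.card G → s G 3 = 20 := fun e => by
    have := L_p Nat.prime_three e; have := v 3; omega
  have v4 := v 4 (by decide)
  have v8 := v 8 (by decide)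
  by_cases d5 : 5 ∣ Nat.card G
  · have s5 : s G 5 = 24 := by have := L_p Nat.prime_five d5; have := v 5; omega
    have n25 : ¬ 5 ^ (1 + 1) ∣ Nat.card G := fun e => by
      have a1 := frob_list [1, 5, 25] (by decide) e
      have a2 := frob_list [1, 2, 5, 10, 25, 50] (by decide)
        (Nat.Coprime.mul_dvd_of_dvd_of_dvd (by decide) d2 e)
      simp only [List.map, List.sum_cons, List.sum_nil] at a1 a2
      have s25 : s G 25 = 0 := by have := v 25; omega
      have := s_zero_of_dvd s25 (show 25 ∣ 50 by decide)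
      have := v 10
      omega
    have c5 : s G (5 ^ 1) ≠ 0 := by rw [pow_one]; omega
    have d3 : 3 ∣ Nat.card G := by
      have := dvd_card_of_cyclic Nat.prime_five c5 n25 d5; rw [s5] at this; omega
    have s3 := s3 d3
    have s10 : s G 10 = 0 := by
      have a1 : s G 5 ∣ s G 10 * 4 := dvd_s_of_cyclic Nat.prime_five c5 n25 (m := 2) (by decide)
      have a2 : 5 ∣ s G 2 + s G 10 := L_pq' Nat.prime_five Nat.prime_two (by decide) d5 d2
      have := v 10
      rw [s5] at a1
      omega
    have s15 : s G 15 = 0 := by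
      have a1 : s G 5 ∣ s G 15 * 4 := dvd_s_of_cyclic Nat.prime_five c5 n25 (m := 3) (by decide)
      have a2 : 5 ∣ s G 3 + s G 15 := L_pq' Nat.prime_five Nat.prime_three (by decide) d5 d3
      have := v 15
      rw [s5] at a1
      omega
    have hn := dvd_of_bounds (a := 3) (b := 1) (c := 1) hπ
      (fun e => by have := pow_dvd_s Nat.prime_two Nat.prime_five (by decide) s10 e; omega)
      (fun e => by have := pow_dvd_s Nat.prime_three Nat.prime_five (by decide) s15 e; omega) n25
    have hs := card_list [1, 2, 3, 4, 5, 6, 8, 10, 12, 15, 20, 24, 30, 40, 60, 120] (by decide) hn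
    have a1 := frob_list [1, 2, 3, 6] (by decide) (Nat.Coprime.mul_dvd_of_dvd_of_dvd (by decide) d2 d3)
    simp only [List.map, List.sum_cons, List.sum_nil, s_zero_of_dvd s10 (show 10 ∣ 20 by decide),
      s_zero_of_dvd s10 (show 10 ∣ 30 by decide), s_zero_of_dvd s10 (show 10 ∣ 40 by decide),
      s_zero_of_dvd s10 (show 10 ∣ 60 by decide), s_zero_of_dvd s10 (show 10 ∣ 120 by decide)]
      at hs a1
    have h60 : Nat.card G = 60 := by
      have a2 := s_zero_of_dvd (G := G) (m := 6) (n := 12)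
      have a3 := s_zero_of_dvd (G := G) (m := 6) (n := 24)
      have := v 6
      have := v 12
      have := v 24
      obtain ⟨k, hk⟩ := hn
      have : k ≤ 2 := by nlinarith
      interval_cases k <;> omega
    refine Dickson.nonempty_equiv_A5 (fun g => ?_) h60
    have := mem_of_sum_eq (T := {1, 2, 3, 5}) (by simp [*]) g
    simp only [← orderOf_dvd_iff_pow_eq_one]
    simp only [Finset.mem_insert, Finset.mem_singleton] at this
    rcases this with e | e | e | e <;> simp [e]
  exfalso
  by_cases d3 : 3 ∣ Nat.card G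
  · have s3 := s3 d3
    have s27 : s G 27 = 0 := by have := tot (G := G) 27 18 (by decide); have := v 27; omega
    have := v 9
    have := tot (G := G) 9 6 (by decide)
    have : s G 3 ∣ Nat.card G * 2 := by
      by_cases s9 : s G 9 = 0
      · exact dvd_card_of_cyclic (k := 1) Nat.prime_three (by rw [pow_one]; omega) (fun e => by
          have := frob_list [1, 3, 9] (by decide) e; simp at this; omega) d3
      · exact dvd_card_of_cyclic (k := 2) Nat.prime_three s9 (fun e => by
          have := frob_list [1, 3, 9, 27] (by decide) e; simp at this; omega) d3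
    rw [s3] at this
    omega
  have s32 : s G 32 = 0 := by have := tot (G := G) 32 16 (by decide); have := v 32; omega
  have s64 := s_zero_of_dvd s32 (show 32 ∣ 64 by decide)
  have s128 := s_zero_of_dvd s32 (show 32 ∣ 128 by decide)
  have v16 := v 16 (by decide)
  have hn := dvd_of_bounds (a := 6) (b := 0) (c := 0) hπ (fun e => by
    have := frob_list [1, 2, 4, 8, 16, 32, 64, 128] (by decide) e; simp at this; omega) d3 d5
  have hs := card_list [1, 2, 4, 8, 16, 32, 64] (by decide) hn
  simp only [List.map, List.sum_cons, List.sum_nil] at hs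
  have h64 : Nat.card G = 64 := by
    obtain ⟨k, hk⟩ := hn
    have : k ≤ 1 := by nlinarith
    interval_cases k <;> omega
  obtain ⟨i, hi, rfl⟩ := (Nat.dvd_prime_pow Nat.prime_two).mp
    (show m ∣ 2 ^ 6 from (dvd_card_of_s_ne_zero (by omega)).trans h64.dvd)
  interval_cases i <;> simp at hm <;> omega

theorem nse_six (h : vals G = {1, 45, 80, 90, 144}) :
    Nonempty (G ≃* alternatingGroup (Fin 6)) := by
  obtain ⟨h1, h2⟩ := of_vals h
  simp only [Set.mem_insert_iff, Set.mem_singleton_iff] at h1 h2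
  have s1 := s_one (G := G)
  obtain ⟨m, s2⟩ := h2 45 (by simp)
  obtain rfl := eq_two_of_odd (m := m) (by rw [s2]; decide) (by omega)
  have d2 : 2 ∣ Nat.card G := dvd_card_of_s_ne_zero (by omega)
  have v : ∀ m, 2 < m → s G m = 0 ∨ s G m = 80 ∨ s G m = 90 ∨ s G m = 144 := fun m hm => by
    have := h1 m; have := big (G := G) hm; omega
  have d7 : ¬ 7 ∣ Nat.card G := fun d7 => by
    have p7 : Nat.Prime 7 := by decide
    have s7 : s G 7 = 90 := by have := L_p p7 d7; have := v 7; omega
    have s49 : s G 49 = 0 := by have := tot (G := G) 49 42 (by decide); have := v 49; omega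
    have a1 : s G 7 ∣ s G 14 * 6 := dvd_s_of_cyclic (k := 1) p7 (by rw [pow_one]; omega) (fun e => by
      have := frob_list [1, 7, 49] (by decide) e; simp at this; omega) (m := 2) (by decide)
    have a2 : 7 ∣ s G 2 + s G 14 := L_pq' p7 Nat.prime_two (by decide) d7 d2
    have := v 14
    rw [s7] at a1
    omega
  have hπ : ∀ p, p.Prime → p ∣ Nat.card G → p = 2 ∨ p = 3 ∨ p = 5 := fun p hp hd => by
    refine (em (p = 2)).imp_right fun e => ?_
    have a0 : p ≠ 7 := fun e => d7 (e ▸ hd)
    have a1 := L_p hp hd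
    have a2 := tot (G := G) p _ (Nat.totient_prime hp)
    rcases (v p (lt_of_le_of_ne hp.two_le (Ne.symm e))).resolve_left (s_prime_ne_zero hp hd) with
      a3 | a3 | a3 <;> rw [a3] at a1 a2
    · exact Or.inl ((Nat.prime_dvd_prime_iff_eq hp Nat.prime_three).mp
        (hp.dvd_of_dvd_pow (n := 4) a1))
    · rcases (hp.dvd_mul (m := 7) (n := 13)).mp a1 with c | c <;>
        obtain rfl := (Nat.prime_dvd_prime_iff_eq hp (by decide)).mp c <;> omega
    · rcases (hp.dvd_mul (m := 5) (n := 29)).mp a1 with c | c <;>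
        obtain rfl := (Nat.prime_dvd_prime_iff_eq hp (by decide)).mp c <;> omega
  obtain ⟨m, hm⟩ := h2 80 (by simp)
  obtain ⟨m', hm'⟩ := h2 90 (by simp)
  obtain ⟨m'', hm''⟩ := h2 144 (by simp)
  have hl := list_le (G := G) [1, 2, m, m', m''] (by simp [*])
  simp only [List.map, List.sum_cons, List.sum_nil] at hl
  have s3 : 3 ∣ Nat.card G → s G 3 = 80 := fun e => by
    have := L_p Nat.prime_three e; have := v 3; omega
  have s4 : 4 ∣ Nat.card G → s G 4 = 90 := fun e => by
    have := frob_list [1, 2, 4] (by decide) e; have := v 4; simp at *; omega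
  have v8 := v 8 (by decide)
  have n16 : ¬ 2 ^ (3 + 1) ∣ Nat.card G := fun e => by
    have := s4 ((show 4 ∣ 16 by decide).trans e)
    have := tot (G := G) 8 4 (by decide)
    have := tot (G := G) 16 8 (by decide)
    have := v 16
    have := frob_list [1, 2, 4, 8, 16] (by decide) e
    simp only [List.map, List.sum_cons, List.sum_nil] at this
    omega
  by_cases d5 : 5 ∣ Nat.card G
  · have s5 : s G 5 = 144 := by have := L_p Nat.prime_five d5; have := v 5; omega
    have n25 : ¬ 5 ^ (1 + 1) ∣ Nat.card G := fun e => by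
      have a1 := frob_list [1, 5, 25] (by decide) e
      simp only [List.map, List.sum_cons, List.sum_nil] at a1
      have s25 : s G 25 = 80 := by have := v 25; omega
      have a2 : s G 5 ∣ s G 25 * 4 := dvd_s_of_cyclic (k := 2) Nat.prime_five (by
        change s G 25 ≠ 0; omega) (fun e => by
          have := tot (G := G) 125 100 (by decide)
          have := v 125
          have := frob_list [1, 5, 25, 125] (by decide) e
          simp only [List.map, List.sum_cons, List.sum_nil] at this
          omega) (m := 5) (by decide)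
      rw [s5] at a2
      omega
    have c5 : s G (5 ^ 1) ≠ 0 := by rw [pow_one]; omega
    have d36 := dvd_card_of_cyclic Nat.prime_five c5 n25 d5
    rw [s5] at d36
    have d3 : 3 ∣ Nat.card G := by omega
    have s3 := s3 d3
    have s4 := s4 (by omega)
    have s15 : s G 15 = 0 := by
      have a1 : s G 5 ∣ s G 15 * 4 := dvd_s_of_cyclic Nat.prime_five c5 n25 (m := 3) (by decide)
      have a2 : 5 ∣ s G 3 + s G 15 := L_pq' Nat.prime_five Nat.prime_three (by decide) d5 d3
      have := v 15
      rw [s5] at a1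
      omega
    have hn := Nat.le_antisymm (Nat.le_of_dvd (by decide) (dvd_of_bounds (a := 3) (b := 2) (c := 1)
      hπ n16 (fun e => by
        have := pow_dvd_s Nat.prime_three Nat.prime_five (by decide) s15 e; omega) n25)) (by omega)
    refine (Cfsg.Agent.S3433.result (G := G) (Set.ext fun k => ⟨?_, fun hk => ?_⟩)).resolve_right ?_
    · rintro ⟨g, rfl⟩
      have := mem_of_sum_eq (T := {1, 2, 3, 4, 5}) (by simp [*]) g
      simp only [Finset.mem_insert, Finset.mem_singleton] at this
      constructor <;> omega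
    · obtain ⟨a1, a2⟩ := hk
      refine s_ne_zero_iff.mp ?_
      interval_cases k <;> omega
    · rintro ⟨N, _, hN, ⟨e⟩⟩
      have a1 := N.card_mul_index
      rw [index, Nat.card_congr e.toEquiv, hn, nat_card_alternatingGroup] at a1
      haveI := Fact.mk Nat.prime_three
      obtain ⟨x, hx⟩ := exists_prime_orderOf_dvd_card' (G := N) 3 (by
        simp [Nat.factorial] at a1; omega)
      have := orderOf_dvd_of_pow_eq_one (x := x) (n := 2) (Subtype.ext (hN.2 x x.2))
      rw [hx] at this
      omega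
  exfalso
  by_cases d3 : 3 ∣ Nat.card G
  swap
  · have := Nat.le_of_dvd (by decide) (dvd_of_bounds (b := 0) (c := 0) hπ n16 d3 d5)
    omega
  have s3 := s3 d3
  have s9 : s G 9 = 0 := by_contra fun s9 => by
    have := v 9
    have := v 27
    have := tot (G := G) 9 6 (by decide)
    have := tot (G := G) 27 18 (by decide)
    have : s G 3 ∣ Nat.card G * 2 := dvd_card_of_cyclic (k := 2) Nat.prime_three s9 (fun e => by
      have := frob_list [1, 3, 9, 27] (by decide) e
      simp only [List.map, List.sum_cons, List.sum_nil] at this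
      omega) d3
    rw [s3] at this
    omega
  have z : ∀ k, s G (9 * k) = 0 := fun k => s_zero_of_dvd s9 (Dvd.intro k rfl)
  have hn := dvd_of_bounds (b := 4) (c := 0) hπ n16 (fun e => by
    have := frob_list [1, 3, 9, 9 * 3, 9 * 9, 9 * 27] (by decide +kernel) e
    simp only [List.map, List.sum_cons, List.sum_nil, z] at this
    omega) d5
  have hs := card_list [1, 2, 3, 4, 6, 8, 9, 12, 9 * 2, 24, 9 * 3, 9 * 4, 9 * 6, 9 * 8, 9 * 9, 9 * 12,
    9 * 18, 9 * 24, 9 * 36, 9 * 72] (by decide +kernel) hn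
  simp only [List.map, List.sum_cons, List.sum_nil, z] at hs
  have h648 : Nat.card G = 648 := by
    obtain ⟨k, hk⟩ := hn
    have : k ≤ 1 := by nlinarith
    interval_cases k <;> omega
  have s4 := s4 (by omega)
  have s8 : s G 8 = 0 := by_contra fun e => by
    have := dvd_card_of_cyclic (k := 3) Nat.prime_two e n16 d2
    rw [s2, h648] at this
    omega
  have := s_zero_of_dvd s8 (show 8 ∣ 24 by decide)
  have := v 6
  have := v 12
  omega

theorem alt_count (n k c : ℕ) (l : List ℕ) (hl : k ≠ 0 ∧ k.divisors = l.toFinset ∧ l.Nodup)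
    (h : (Finset.univ.filter fun g : Equiv.Perm (Fin n) =>
      (∀ i, g^[k] i = i) ∧ Equiv.Perm.sign g = 1).card = c) :
    (l.map (s (alternatingGroup (Fin n)))).sum = c := by
  rw [← List.sum_toFinset _ hl.2.2, ← hl.2.1, sum_s hl.1, ← h, ← Set.ncard_coe_finset,
    ← Set.ncard_image_of_injective _ Subtype.val_injective]
  congr 1
  ext g
  simp only [Set.mem_image, Set.mem_ofPred_eq, Finset.coe_filter, Finset.mem_univ, true_and,
    ← Equiv.Perm.coe_pow]
  exact ⟨fun ⟨x, h1, h2⟩ => h2 ▸ ⟨fun i => congrArg (fun y : alternatingGroup (Fin n) => y.1 i) h1, x.2⟩,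
    fun ⟨h2, h1⟩ => ⟨⟨g, h1⟩, Subtype.ext (Equiv.ext h2), rfl⟩⟩

theorem vals_eq {T : Finset ℕ} (h : ∑ m ∈ T, s G m = Nat.card G) (h0 : ∀ m ∈ T, s G m ≠ 0) :
    vals G = s G '' T := by
  rw [vals]
  congr 1
  exact Set.ext fun m => ⟨fun ⟨g, e⟩ => e ▸ mem_of_sum_eq h g, fun e => s_ne_zero_iff.mp (h0 m e)⟩

theorem vals_four : vals (alternatingGroup (Fin 4)) = {1, 3, 8} := by
  have s1 := s_one (G := alternatingGroup (Fin 4))
  have s2 := alt_count 4 2 4 [1, 2] (by decide) (by decide +kernel)
  have s3 := alt_count 4 3 9 [1, 3] (by decide) (by decide +kernel)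
  simp only [List.map, List.sum_cons, List.sum_nil] at s2 s3
  have s2 : s (alternatingGroup (Fin 4)) 2 = 3 := by omega
  have s3 : s (alternatingGroup (Fin 4)) 3 = 8 := by omega
  rw [vals_eq (T := {1, 2, 3}) (by rw [nat_card_alternatingGroup]; simp [*, Nat.factorial])
    (by simp [*])]
  simp [Set.image_insert_eq, *]

theorem vals_five : vals (alternatingGroup (Fin 5)) = {1, 15, 20, 24} := by
  have s1 := s_one (G := alternatingGroup (Fin 5))
  have s2 := alt_count 5 2 16 [1, 2] (by decide) (by decide +kernel)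
  have s3 := alt_count 5 3 21 [1, 3] (by decide) (by decide +kernel)
  have s5 := alt_count 5 5 25 [1, 5] (by decide) (by decide +kernel)
  simp only [List.map, List.sum_cons, List.sum_nil] at s2 s3 s5
  have s2 : s (alternatingGroup (Fin 5)) 2 = 15 := by omega
  have s3 : s (alternatingGroup (Fin 5)) 3 = 20 := by omega
  have s5 : s (alternatingGroup (Fin 5)) 5 = 24 := by omega
  rw [vals_eq (T := {1, 2, 3, 5}) (by rw [nat_card_alternatingGroup]; simp [*, Nat.factorial])
    (by simp [*])]
  simp [Set.image_insert_eq, *]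

set_option maxRecDepth 100000 in
theorem vals_six : vals (alternatingGroup (Fin 6)) = {1, 45, 80, 90, 144} := by
  have s1 := s_one (G := alternatingGroup (Fin 6))
  have s2 := alt_count 6 2 46 [1, 2] (by decide) (by decide +kernel)
  have s3 := alt_count 6 3 81 [1, 3] (by decide) (by decide +kernel)
  have s4 := alt_count 6 4 136 [1, 2, 4] (by decide) (by decide +kernel)
  have s5 := alt_count 6 5 145 [1, 5] (by decide) (by decide +kernel)
  simp only [List.map, List.sum_cons, List.sum_nil] at s2 s3 s4 s5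
  have s2 : s (alternatingGroup (Fin 6)) 2 = 45 := by omega
  have s3 : s (alternatingGroup (Fin 6)) 3 = 80 := by omega
  have s4 : s (alternatingGroup (Fin 6)) 4 = 90 := by omega
  have s5 : s (alternatingGroup (Fin 6)) 5 = 144 := by omega
  rw [vals_eq (T := {1, 2, 3, 4, 5}) (by rw [nat_card_alternatingGroup]; simp [*, Nat.factorial])
    (by simp [*])]
  simp [Set.image_insert_eq, *]

theorem s3431 (n : ℕ) (hn : n = 4 ∨ n = 5 ∨ n = 6) (h : vals G = vals (alternatingGroup (Fin n))) :
    Nonempty (G ≃* alternatingGroup (Fin n)) := by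
  rcases hn with rfl | rfl | rfl
  · exact nse_four (h.trans vals_four)
  · exact nse_five (h.trans vals_five)
  · exact nse_six (h.trans vals_six)

end CfsgLib.Nse
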